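-- helper96: project DG33 (S3670), package [CDEQ]: isomorphic groups have the same character degrees.
import Mathlib
import Cfsg.Agent.Lib.Helper14.DG33.Defs
import Cfsg.Agent.Lib.Helper25.IrrComp

set_option autoImplicit false

namespace Cfsg.Agent.Lib.Helper96.DG33

universe u

/-- [CDEQ] isomorphic groups have the same character degrees. -/
theorem pkgCDEq : Cfsg.Agent.Lib.Helper14.DG33.PkgCDEq.{u} := by
  intro G G' _ _ ⟨e⟩
  ext n
  constructor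
  · rintro ⟨χ, rfl⟩
    refine ⟨⟨fun h => (χ : G → ℂ) (e.symm h),
      Cfsg.Agent.Lib.Helper25.isIrrCharacter_comp_mulEquiv e.symm χ.2⟩, ?_⟩
    show ⌊((χ : G → ℂ) (e.symm 1)).re⌋₊ = ⌊((χ : G → ℂ) 1).re⌋₊
    rw [map_one]
  · rintro ⟨χ, rfl⟩
    refine ⟨⟨fun h => (χ : G' → ℂ) (e h),
      Cfsg.Agent.Lib.Helper25.isIrrCharacter_comp_mulEquiv e χ.2⟩, ?_⟩
    show ⌊((χ : G' → ℂ) (e 1)).re⌋₊ = ⌊((χ : G' → ℂ) 1).re⌋₊
    rw [map_one]

end Cfsg.Agent.Lib.Helper96.DG33
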