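-- helper96: project DG33 (S3670), package [TRIV]: inner products on `B` with the trivial character.
import Mathlib
import Cfsg.Agent.Lib.Helper14.DG33.Defs

set_option autoImplicit false

namespace Cfsg.Agent.Lib.Helper96.DG33

open Cfsg Cfsg.Agent.Lib.Helper14.DG33
open scoped ComplexConjugate

universe u

open Classical in
/-- counting the elements of a subgroup `K ≤ B` inside `B` -/
theorem sum_indicator_card {G : Type u} [Group G] (B K : Subgroup G) [Fintype B] (h : K ≤ B) :
    (∑ b : B, if (b : G) ∈ K then (1 : ℂ) else 0) = (Nat.card K : ℂ) := by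
  classical
  rw [Finset.sum_boole]
  congr 1
  rw [← Nat.card_congr (Subgroup.subgroupOfEquivOfLe h).toEquiv, Nat.card_eq_fintype_card,
    Fintype.card_subtype]
  rfl

/-- [TRIV] inner products on `B` with the trivial character. -/
theorem pkgTriv : PkgTriv.{u} := by
  intro G _ _ B P Z _ t w D lam hlam
  classical
  have hB : (Nat.card B : ℂ) = 216 := by rw [D.cardB]; norm_num
  refine ⟨?_, ?_⟩
  · intro j hj
    unfold classInner lamJ
    simp only [map_one, mul_one]
    by_cases h0 : j = 0
    · subst h0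
      simp only [pow_zero, Finset.sum_const, Finset.card_univ, nsmul_eq_mul, mul_one, if_true]
      rw [← Nat.card_eq_fintype_card, hB]
      norm_num
    · rw [if_neg h0]
      have hζ : IsPrimitiveRoot ((lam ⟨t, D.raw.tB⟩ : ℂˣ) : ℂ) 8 := hlam.prim D.raw.tB
      have hζj : ((lam ⟨t, D.raw.tB⟩ : ℂˣ) : ℂ) ^ j ≠ 1 := by
        intro h
        have h8 := hζ.dvd_of_pow_eq_one j h
        omega
      have hS : ((lam ⟨t, D.raw.tB⟩ : ℂˣ) : ℂ) ^ j * (∑ b : B, ((lam b : ℂˣ) : ℂ) ^ j) =
          ∑ b : B, ((lam b : ℂˣ) : ℂ) ^ j := by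
        rw [Finset.mul_sum]
        refine Fintype.sum_equiv (Equiv.mulLeft (⟨t, D.raw.tB⟩ : B)) _ _ (fun b => ?_)
        simp [mul_pow]
      have h2 : (((lam ⟨t, D.raw.tB⟩ : ℂˣ) : ℂ) ^ j - 1) * (∑ b : B, ((lam b : ℂˣ) : ℂ) ^ j) = 0 := by
        linear_combination hS
      rcases mul_eq_zero.1 h2 with h | h
      · exact absurd (sub_eq_zero.1 h) hζj
      · rw [h, mul_zero]
  · unfold classInner psi8
    simp only [map_one, mul_one]
    have h1 : ∀ b : B, (if (b : G) ∈ Z then (8 : ℂ) else if (b : G) ∈ P then -1 else 0) =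
        9 * (if (b : G) ∈ Z then 1 else 0) - (if (b : G) ∈ P then 1 else 0) := by
      intro b
      by_cases hz : (b : G) ∈ Z
      · have hp : (b : G) ∈ P := D.raw.ZP hz
        simp only [hz, hp, if_true]
        norm_num
      · by_cases hp : (b : G) ∈ P <;> simp [hz, hp]
    have h3 : (∑ b : B, (if (b : G) ∈ Z then (8 : ℂ) else if (b : G) ∈ P then -1 else 0)) = 0 := by
      simp_rw [h1]
      rw [Finset.sum_sub_distrib, ← Finset.mul_sum,
        sum_indicator_card B Z (D.raw.ZP.trans D.raw.PB), sum_indicator_card B P D.raw.PB,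
        D.cardZ, D.cardP]
      norm_num
    convert mul_zero _ using 2

end Cfsg.Agent.Lib.Helper96.DG33
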